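import Cfsg.Agent.H434.SpBase

/-!
# The subgroups of the slim amalgam and generation

`GK k` : the subgroup fixing the first `k` hyperbolic pairs. `SJ j` : the rank one group of the pair `j`. `MI i` : the
abelian group fixing all `ee j` and the `ff j`, `j ≠ i, i+1`. `RK k` contains `SJ k` and `MI k`.
-/

set_option autoImplicit false
open Cfsg
open scoped Matrix
open Cfsg.Agent.ClassicalGeometry.SympBasic Cfsg.Agent.ClassicalGeometry.SympSiegel

namespace Cfsg.Agent.H434.Slim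

variable {F : Type*} [Field F] {n : ℕ}

local notation "V" => (Fin n ⊕ Fin n → F)
local notation "G" => Matrix.symplecticGroup (Fin n) F
local notation "f" => sympForm n F

/-- the subgroup fixing the first `k` pairs -/
abbrev GK (n : ℕ) (F : Type*) [Field F] (k : ℕ) : Subgroup (Matrix.symplecticGroup (Fin n) F) :=
  GJ (fun j : Fin n => (j : ℕ) < k)

/-- orthogonal to the first `k` pairs -/
abbrev InK (k : ℕ) (v : V) : Prop := InJ (fun j : Fin n => (j : ℕ) < k) v

/-- the rank one group of the pair `j` -/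
abbrev SJ (F : Type*) [Field F] {n : ℕ} (j : Fin n) : Subgroup (Matrix.symplecticGroup (Fin n) F) :=
  GJ (fun l => l ≠ j)

/-- the abelian group of the pairs `i`, `i+1` -/
def MI (n : ℕ) (F : Type*) [Field F] (i : ℕ) : Subgroup (Matrix.symplecticGroup (Fin n) F) where
  carrier := {g | (∀ j : Fin n, g • (ee j : Fin n ⊕ Fin n → F) = ee j) ∧
    ∀ j : Fin n, (j : ℕ) ≠ i → (j : ℕ) ≠ i + 1 → g • (ff j : Fin n ⊕ Fin n → F) = ff j}
  mul_mem' := by
    intro a b ha hb
    refine ⟨fun j => ?_, fun j h1 h2 => ?_⟩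
    · rw [mul_smul, hb.1 j, ha.1 j]
    · rw [mul_smul, hb.2 j h1 h2, ha.2 j h1 h2]
  one_mem' := ⟨fun j => one_smul _ _, fun j _ _ => one_smul _ _⟩
  inv_mem' := by
    intro a ha
    refine ⟨fun j => ?_, fun j h1 h2 => ?_⟩
    · rw [inv_smul_eq_iff]; exact (ha.1 j).symm
    · rw [inv_smul_eq_iff]; exact (ha.2 j h1 h2).symm

theorem mem_MI {i : ℕ} {g : G} : g ∈ MI n F i ↔ (∀ j : Fin n, g • (ee j : V) = ee j) ∧
    ∀ j : Fin n, (j : ℕ) ≠ i → (j : ℕ) ≠ i + 1 → g • (ff j : V) = ff j := Iff.rfl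

/-- the group containing `SJ k` and `MI k` -/
def RK {n : ℕ} (F : Type*) [Field F] (k : Fin n) : Subgroup (Matrix.symplecticGroup (Fin n) F) where
  carrier := {g | (∀ j : Fin n, j ≠ k → g • (ee j : Fin n ⊕ Fin n → F) = ee j) ∧
    ∀ j : Fin n, j ≠ k → (j : ℕ) ≠ k + 1 → g • (ff j : Fin n ⊕ Fin n → F) = ff j}
  mul_mem' := by
    intro a b ha hb
    refine ⟨fun j h => ?_, fun j h1 h2 => ?_⟩
    · rw [mul_smul, hb.1 j h, ha.1 j h]
    · rw [mul_smul, hb.2 j h1 h2, ha.2 j h1 h2]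
  one_mem' := ⟨fun j _ => one_smul _ _, fun j _ _ => one_smul _ _⟩
  inv_mem' := by
    intro a ha
    refine ⟨fun j h => ?_, fun j h1 h2 => ?_⟩
    · rw [inv_smul_eq_iff]; exact (ha.1 j h).symm
    · rw [inv_smul_eq_iff]; exact (ha.2 j h1 h2).symm

theorem sup_le_RK (k : Fin n) : MI n F k ⊔ SJ F k ≤ RK F k := by
  refine sup_le (fun g hg => ⟨fun j _ => hg.1 j, fun j h1 h2 => hg.2 j ?_ h2⟩)
    (fun g hg => ⟨fun j h => (hg j h).1, fun j h _ => (hg j h).2⟩)
  intro h
  exact h1 (Fin.ext h)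

theorem mem_MI_of_RK {k : Fin n} {g : G} (hg : g ∈ RK F k) (h : g • (ee k : V) = ee k) :
    g ∈ MI n F k := by
  refine ⟨fun j => ?_, fun j h1 h2 => hg.2 j ?_ h2⟩
  · by_cases hj : j = k
    · rw [hj, h]
    · exact hg.1 j hj
  · rintro rfl
    exact h1 rfl

theorem SJ_le_GK {k : ℕ} {j : Fin n} (h : k ≤ j) : SJ F j ≤ GK n F k := by
  refine GJ_mono ?_
  rintro l hl rfl
  omega

theorem MI_le_GK {k i : ℕ} (h : k ≤ i) : MI n F i ≤ GK n F k := by
  intro g hg j hj
  exact ⟨hg.1 j, hg.2 j (by omega) (by omega)⟩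

theorem RK_le_GK (k : Fin n) : RK F k ≤ GK n F k := by
  intro g hg j hj
  have hne : j ≠ k := by rintro rfl; omega
  exact ⟨hg.1 j hne, hg.2 j hne (by omega)⟩

theorem GK_succ_le (k : ℕ) : GK n F (k + 1) ≤ GK n F k := GJ_mono (fun _ h => Nat.lt_succ_of_lt h)

theorem inK_succ {k : Fin n} {v : V} :
    InK (k + 1) v ↔ InK k v ∧ f v (ee k) = 0 ∧ f v (ff k) = 0 := by
  constructor
  · intro h
    exact ⟨h.mono (fun j hj => Nat.lt_succ_of_lt hj), h k (Nat.lt_succ_self _)⟩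
  · rintro ⟨h1, h2⟩ j hj
    rcases Nat.lt_succ_iff_lt_or_eq.1 hj with h | h
    · exact h1 j h
    · have : j = k := Fin.ext h
      subst this
      exact h2

theorem mem_GK_succ {k : Fin n} {g : G} :
    g ∈ GK n F (k + 1) ↔ g ∈ GK n F k ∧ g • (ee k : V) = ee k ∧ g • (ff k : V) = ff k := by
  constructor
  · intro h
    exact ⟨GK_succ_le _ h, h k (Nat.lt_succ_self _)⟩
  · rintro ⟨h1, h2⟩ j hj
    rcases Nat.lt_succ_iff_lt_or_eq.1 hj with h | h
    · exact h1 j h
    · have : j = k := Fin.ext h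
      subst this
      exact h2

theorem perp_ee {k : Fin n} {w : V} (hw : InK (k + 1) w) : f (ee k) w = 0 := by
  rw [sympForm_swap, (inK_succ.1 hw).2.1, neg_zero]

theorem perp_ff {k : Fin n} {w : V} (hw : InK (k + 1) w) : f (ff k) w = 0 := by
  rw [sympForm_swap, (inK_succ.1 hw).2.2, neg_zero]

theorem inK_ee (k : Fin n) : InK (k : ℕ) (ee k : V) := inJ_ee (lt_irrefl _)

theorem inK_ff (k : Fin n) : InK (k : ℕ) (ff k : V) := inJ_ff (lt_irrefl _)

/-- the element `T(w,c)` lies in `GK k` -/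
theorem siegel_mem_GK {k : Fin n} {w : V} (hw : InK (k + 1) w) (c : F) :
    siegel (ee k) w c ∈ GK n F k :=
  siegel_mem (perp_ee hw) (inK_ee k) (inK_succ.1 hw).1 c

theorem siegel_ee {k : Fin n} {w : V} (hw : InK (k + 1) w) (c : F) :
    siegel (ee k) w c • (ee k : V) = ee k := smul_siegel_self (perp_ee hw) c

theorem siegel_ff {k : Fin n} {w : V} (hw : InK (k + 1) w) (c : F) :
    siegel (ee k) w c • (ff k : V) = ff k + w + c • ee k := by
  rw [siegel_smul (perp_ee hw), (inK_succ.1 hw).2.2, ee_ff_self]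
  module

/-- the parameters of an element of the stabiliser -/
def cOf (k : Fin n) (g : G) : F := f (g • ff k) (ff k)

/-- the parameters of an element of the stabiliser -/
def wOf (k : Fin n) (g : G) : V := g • ff k - ff k - cOf k g • ee k

theorem inK_wOf {k : Fin n} {g : G} (hg : g ∈ GK n F k) (he : g • (ee k : V) = ee k) :
    InK (k + 1) (wOf k g) := by
  rw [inK_succ]
  refine ⟨(((inK_ff k).act hg).sub (inK_ff k)).sub ((inK_ee k).smul _), ?_, ?_⟩
  · have := form_smul g (ff k) (ee k)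
    rw [he] at this
    rw [wOf, sympForm_sub_left, sympForm_sub_left, this, sympForm_smul_left, ee_ee]
    simp
  · rw [wOf, sympForm_sub_left, sympForm_sub_left, sympForm_smul_left, ff_ff, ee_ff_self, cOf]
    ring

theorem smul_ff_eq (k : Fin n) (g : G) : g • (ff k : V) = ff k + wOf k g + cOf k g • ee k := by
  rw [wOf]
  abel

/-- **The stabiliser of `ee k`.** -/
theorem exists_rep {k : Fin n} {g : G} (hg : g ∈ GK n F k) (he : g • (ee k : V) = ee k) :
    ∃ (w : V) (c : F) (g' : G), InK (k + 1) w ∧ g' ∈ GK n F (k + 1) ∧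
      g = siegel (ee k) w c * g' := by
  have hw := inK_wOf hg he
  refine ⟨wOf k g, cOf k g, (siegel (ee k) (wOf k g) (cOf k g))⁻¹ * g, hw, ?_, ?_⟩
  · rw [mem_GK_succ]
    refine ⟨mul_mem (inv_mem (siegel_mem_GK hw _)) hg, ?_, ?_⟩
    · rw [mul_smul, he, inv_smul_eq_iff, siegel_ee hw]
    · rw [mul_smul, inv_smul_eq_iff, siegel_ff hw, ← smul_ff_eq]
  · rw [mul_inv_cancel_left]

theorem cOf_rep {k : Fin n} {w : V} (hw : InK (k + 1) w) (c : F) {g : G}
    (hg : g ∈ GK n F (k + 1)) : cOf k (siegel (ee k) w c * g) = c := by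
  rw [cOf, mul_smul, (mem_GK_succ.1 hg).2.2, siegel_ff hw, sympForm_add_left, sympForm_add_left,
    ff_ff, (inK_succ.1 hw).2.2, sympForm_smul_left, ee_ff_self]
  ring

theorem wOf_rep {k : Fin n} {w : V} (hw : InK (k + 1) w) (c : F) {g : G}
    (hg : g ∈ GK n F (k + 1)) : wOf k (siegel (ee k) w c * g) = w := by
  rw [wOf, cOf_rep hw c hg, mul_smul, (mem_GK_succ.1 hg).2.2, siegel_ff hw]
  module

theorem rep_mul {k : Fin n} {w w' : V} (hw : InK (k + 1) w) (hw' : InK (k + 1) w') (c c' : F)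
    {g : G} (hg : g ∈ GK n F (k + 1)) (g' : G) :
    siegel (ee k) w c * g * (siegel (ee k) w' c' * g') =
      siegel (ee k) (w + g • w') (c + c' + f w (g • w')) * (g * g') := by
  rw [← siegel_mul (perp_ee hw) (perp_ee (hw'.act hg))]
  have := conj_siegel g (perp_ee hw') c'
  rw [(mem_GK_succ.1 hg).2.1] at this
  rw [← this]
  group

theorem siegel_split {k : Fin n} {w : V} (hw : InK (k + 1) w) (c : F) :
    siegel (ee k) w c = siegel (ee k) w 0 * siegel (ee k) 0 c := by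
  rw [siegel_mul (perp_ee hw) (sympForm_zero_right _), add_zero, sympForm_zero_right, add_zero,
    zero_add]

theorem inK_zero (k : ℕ) : InK k (0 : V) := InJ.zero _

/-- a nonzero vector orthogonal to the first `k` pairs -/
theorem exists_index {k : ℕ} {w : V} (hw : InK k w) (h0 : w ≠ 0) : ∃ j : Fin n, (j : ℕ) = k := by
  by_contra hcon
  push Not at hcon
  apply h0
  have hnk : n ≤ k := by
    by_contra h
    exact hcon ⟨k, by omega⟩ rfl
  rw [expand w]
  refine Finset.sum_eq_zero fun j _ => ?_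
  obtain ⟨h1, h2⟩ := hw j (by omega)
  rw [h1, h2]
  simp

theorem siegel_mem_of {k : Fin n} {X : Subgroup G} (hX : GK n F (k + 1) ≤ X)
    (h1 : ∀ k1 : Fin n, (k1 : ℕ) = k + 1 → siegel (ee k) (ee k1 : V) 0 ∈ X) {w : V}
    (hw : InK (k + 1) w) : siegel (ee k) w 0 ∈ X := by
  by_cases h0 : w = 0
  · rw [h0, siegel_zero_zero]
    exact one_mem _
  · obtain ⟨k1, hk1⟩ := exists_index hw h0
    have he1 : InK (k + 1) (ee k1 : V) := by rw [← hk1]; exact inK_ee k1
    obtain ⟨g, hg, hgw⟩ := exists_smul_eq he1 hw (ee_ne_zero k1) h0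
    have := conj_siegel g (perp_ee he1) 0
    rw [(mem_GK_succ.1 hg).2.1, hgw] at this
    rw [← this]
    exact mul_mem (mul_mem (hX hg) (h1 k1 hk1)) (inv_mem (hX hg))

/-- the stabiliser of `ee k` is generated by root elements and `GK (k+1)` -/
theorem gen_stab {k : Fin n} {X : Subgroup G} (hX : GK n F (k + 1) ≤ X)
    (h0 : ∀ c, siegel (ee k) (0 : V) c ∈ X)
    (h1 : ∀ k1 : Fin n, (k1 : ℕ) = k + 1 → siegel (ee k) (ee k1 : V) 0 ∈ X) {g : G}
    (hg : g ∈ GK n F k) (he : g • (ee k : V) = ee k) : g ∈ X := by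
  obtain ⟨w, c, g', hw, hg', rfl⟩ := exists_rep hg he
  rw [siegel_split hw]
  exact mul_mem (mul_mem (siegel_mem_of hX h1 hw) (h0 c)) (hX hg')

/-- moving `b • ff k` to an arbitrary vector not orthogonal to `ee k` -/
theorem siegel_move {k : Fin n} {w : V} (hw : InK (k + 1) w) (a : F) {b : F} (hb : b ≠ 0) :
    siegel (ee k) (b⁻¹ • w) (b⁻¹ * a) • (b • ff k) = a • ee k + b • ff k + w := by
  rw [smul_smul', siegel_ff (hw.smul _), smul_add, smul_add, smul_smul, smul_smul,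
    mul_inv_cancel_left₀ hb, mul_inv_cancel₀ hb, one_smul]
  abel

/-- the components of a vector -/
theorem decomp {k : Fin n} {v : V} (hv : InK k v) :
    ∃ w, InK (k + 1) w ∧ v = f v (ff k) • ee k + f (ee k) v • ff k + w := by
  refine ⟨v - f v (ff k) • ee k - f (ee k) v • ff k, ?_, by abel⟩
  rw [inK_succ]
  refine ⟨(hv.sub ((inK_ee k).smul _)).sub ((inK_ff k).smul _), ?_, ?_⟩
  · rw [sympForm_sub_left, sympForm_sub_left, sympForm_smul_left, sympForm_smul_left, ee_ee,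
      ff_ee_self, sympForm_swap v]
    ring
  · rw [sympForm_sub_left, sympForm_sub_left, sympForm_smul_left, sympForm_smul_left, ff_ff,
      ee_ff_self]
    ring

theorem inJ_plane {k : Fin n} (a b : F) : InJ (fun l => l ≠ k) (a • ee k + b • ff k : V) :=
  ((inJ_ee (by simp)).smul _).add ((inJ_ff (by simp)).smul _)

theorem plane_ne_zero {k : Fin n} {a b : F} (h : a ≠ 0 ∨ b ≠ 0) :
    (a • ee k + b • ff k : V) ≠ 0 := by
  intro h0
  have h1 := congrArg (fun x => f x (ff k)) h0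
  have h2 := congrArg (fun x => f x (ee k)) h0
  simp only [sympForm_add_left, sympForm_smul_left, sympForm_zero_left, ee_ff_self, ff_ff, ee_ee,
    ff_ee_self] at h1 h2
  rcases h with h | h
  · apply h; linear_combination h1
  · apply h; linear_combination -h2

/-- `SJ k` is transitive on the nonzero vectors of its plane -/
theorem exists_SJ {k : Fin n} {a b : F} (h : a ≠ 0 ∨ b ≠ 0) :
    ∃ s ∈ SJ F k, s • (ee k : V) = a • ee k + b • ff k :=
  exists_smul_eq (inJ_ee (by simp)) (inJ_plane a b) (ee_ne_zero k) (plane_ne_zero h)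

theorem SJ_fix {k : Fin n} {s : G} (hs : s ∈ SJ F k) {w : V} (h1 : f w (ee k) = 0)
    (h2 : f w (ff k) = 0) : s • w = w := by
  refine smul_eq_of_support hs (fun j hj => ?_)
  rw [not_not.1 hj]
  exact ⟨h1, h2⟩

/-- **Generation.** -/
theorem gen_step {k k1 : Fin n} (hk : (k1 : ℕ) = k + 1) {X : Subgroup G}
    (hX : GK n F (k + 1) ≤ X) (hS : SJ F k ≤ X) (h1 : siegel (ee k) (ee k1 : V) 0 ∈ X) :
    GK n F k ≤ X := by
  have h1' : ∀ k1 : Fin n, (k1 : ℕ) = k + 1 → siegel (ee k) (ee k1 : V) 0 ∈ X := by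
    intro l hl
    have : l = k1 := Fin.ext (hl.trans hk.symm)
    rwa [this]
  have h0 : ∀ c, siegel (ee k) (0 : V) c ∈ X := fun c =>
    hS (siegel_mem (sympForm_zero_right _) (inJ_ee (by simp)) (InJ.zero _) c)
  have hT : ∀ w : V, InK (k + 1) w → ∀ c, siegel (ee k) w c ∈ X := by
    intro w hw c
    rw [siegel_split hw]
    exact mul_mem (siegel_mem_of hX h1' hw) (h0 c)
  have he1 : InK (k + 1) (ee k1 : V) := by rw [← hk]; exact inK_ee k1
  have hf1 : InK (k + 1) (ff k1 : V) := by rw [← hk]; exact inK_ff k1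
  -- case (a)
  have ca : ∀ (a b : F) (w : V), InK (k + 1) w → b ≠ 0 →
      ∃ x ∈ X, x ∈ GK n F k ∧ x • (ee k : V) = a • ee k + b • ff k + w := by
    intro a b w hw hb
    obtain ⟨s, hs, hse⟩ := exists_SJ (F := F) (k := k) (a := 0) (b := b) (Or.inr hb)
    rw [zero_smul, zero_add] at hse
    refine ⟨siegel (ee k) (b⁻¹ • w) (b⁻¹ * a) * s, mul_mem (hT _ (hw.smul _) _) (hS hs),
      mul_mem (siegel_mem_GK (hw.smul _) _) (SJ_le_GK le_rfl hs), ?_⟩
    rw [mul_smul, hse, siegel_move hw a hb]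
  -- case (b)
  have cb : ∀ (a : F) (w : V), InK (k + 1) w → a ≠ 0 →
      ∃ x ∈ X, x ∈ GK n F k ∧ x • (ee k : V) = a • ee k + w := by
    intro a w hw ha
    obtain ⟨s, hs, hse⟩ := exists_smul_eq (J := fun l => l ≠ k) (x := a • (ee k : V))
      (y := (ff k : V)) ((inJ_ee (by simp)).smul _) (inJ_ff (by simp))
      (smul_ne_zero ha (ee_ne_zero k)) (ff_ne_zero k)
    obtain ⟨x, hx, hxG, hxe⟩ := ca 0 1 w hw one_ne_zero
    refine ⟨s⁻¹ * x, mul_mem (inv_mem (hS hs)) hx,
      mul_mem (inv_mem (SJ_le_GK le_rfl hs)) hxG, ?_⟩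
    rw [mul_smul, hxe, inv_smul_eq_iff, smul_add', hse,
      SJ_fix hs (inK_succ.1 hw).2.1 (inK_succ.1 hw).2.2, zero_smul, zero_add, one_smul]
  -- case (c)
  have cc : ∀ (w : V), InK (k + 1) w → w ≠ 0 → ∃ x ∈ X, x ∈ GK n F k ∧ x • (ee k : V) = w := by
    intro w hw h0
    obtain ⟨g, hg, hgw⟩ := exists_smul_eq he1 hw (ee_ne_zero k1) h0
    obtain ⟨x, hx, hxG, hxe⟩ := cb (-1) (ee k1) he1 (neg_ne_zero.2 one_ne_zero)
    refine ⟨g * (siegel (ee k) (ff k1) 0)⁻¹ * x,
      mul_mem (mul_mem (hX hg) (inv_mem (hT _ hf1 _))) hx,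
      mul_mem (mul_mem (GK_succ_le _ hg) (inv_mem (siegel_mem_GK hf1 _))) hxG, ?_⟩
    rw [mul_smul, hxe, mul_smul, ← hgw]
    congr 1
    rw [inv_smul_eq_iff, siegel_smul (perp_ee hf1), ff_ee_self, perp_ee he1]
    module
  intro g hg
  have hv : InK k (g • (ee k : V)) := (inK_ee k).act hg
  have hv0 : g • (ee k : V) ≠ 0 := smul_ne_zero' g (ee_ne_zero k)
  obtain ⟨x, hx, hxG, hxe⟩ : ∃ x ∈ X, x ∈ GK n F k ∧ x • (ee k : V) = g • ee k := by
    generalize g • (ee k : V) = v at hv hv0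
    obtain ⟨w, hw, hvw⟩ := decomp hv
    rw [hvw]
    by_cases hb : f (ee k) v = 0
    · by_cases ha : f v (ff k) = 0
      · rw [ha, hb, zero_smul, zero_smul, zero_add, zero_add]
        refine cc w hw ?_
        rintro rfl
        rw [ha, hb] at hvw
        apply hv0
        rw [hvw]
        simp
      · rw [hb, zero_smul, add_zero]
        exact cb _ w hw ha
    · exact ca _ _ w hw hb
  have h3 : x⁻¹ * g ∈ X := gen_stab hX h0 h1' (mul_mem (inv_mem hxG) hg)
    (by rw [mul_smul, ← hxe, inv_smul_smul])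
  have : g = x * (x⁻¹ * g) := by group
  rw [this]
  exact mul_mem hx h3

end Cfsg.Agent.H434.Slim
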