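import Cfsg.Agent.H434.SlimBeta
import Cfsg.Agent.H434.Cover2

/-!
# The inductive step for the slim amalgam

`StepData.exists_hom` : the homomorphism of `GK k`.
-/

set_option autoImplicit false
open Cfsg
open scoped Matrix
open Cfsg.Agent.ClassicalGeometry.SympBasic Cfsg.Agent.ClassicalGeometry.SympSiegel
open Cfsg.Agent.Phan.Cover

namespace Cfsg.Agent.H434.Slim

variable {F : Type*} [Field F] {n : ℕ} {H : Type*} [Group H]

local notation "V" => (Fin n ⊕ Fin n → F)
local notation "G" => Matrix.symplecticGroup (Fin n) F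
local notation "f" => sympForm n F

/-- nonzero vectors orthogonal to the first `k` pairs -/
def Om (n : ℕ) (F : Type*) [Field F] (k : ℕ) : Type _ :=
  {v : Fin n ⊕ Fin n → F // InK k v ∧ v ≠ 0}

instance instMulActionOmSlim (k : ℕ) : MulAction ↥(GK n F k) (Om n F k) where
  smul g v := ⟨(g : Matrix.symplecticGroup (Fin n) F) • v.1, v.2.1.act g.2,
    smul_ne_zero' _ v.2.2⟩
  one_smul _ := Subtype.ext (one_smul _ _)
  mul_smul _ _ _ := Subtype.ext (mul_smul _ _ _)

theorem Om.smul_val {k : ℕ} (g : ↥(GK n F k)) (v : Om n F k) :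
    (g • v).1 = (g : Matrix.symplecticGroup (Fin n) F) • v.1 := rfl

theorem PK_le_GK (k : Fin n) : PK F k ≤ GK n F k := fun _ h => h.1

theorem GK_succ_le_PK (k : Fin n) : GK n F (k + 1) ≤ PK F k :=
  fun _ h => ⟨GK_succ_le _ h, (mem_GK_succ.1 h).2.1⟩

theorem MI_le_PK (k : Fin n) : MI n F k ≤ PK F k := fun _ h => ⟨MI_le_GK le_rfl h, h.1 k⟩

theorem SJ_le_GK_self (k : Fin n) : SJ F k ≤ GK n F k := SJ_le_GK le_rfl

/-- the data -/
def sctx (k : Fin n) {β σ : Matrix.symplecticGroup (Fin n) F → H} (hβ : IsHomOn (PK F k) β)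
    (hσ : IsHomOn (SJ F k) σ) : Ctx ↥(GK n F k) H (Om n F k) ↥(PK F k) ↥(SJ F k) where
  p := ⟨ee k, inK_ee k, ee_ne_zero k⟩
  adj u v := sympForm n F u.1 v.1 ≠ 0
  ι := Subgroup.inclusion (PK_le_GK k)
  α := hβ.toHom
  κ := Subgroup.inclusion (SJ_le_GK_self k)
  φ := hσ.toHom

/-- avoiding two values -/
theorem exists_avoid (hF : ∃ a : F, a ≠ 0 ∧ a ≠ 1) {a b c d : F} (hb : b ≠ 0) (hd : d ≠ 0) :
    ∃ s : F, a + s * b ≠ 0 ∧ c + s * d ≠ 0 := by
  obtain ⟨t, ht0, ht1⟩ := hF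
  by_contra hcon
  push Not at hcon
  -- at each of `0, 1, t` one of the two vanishes
  have key : ∀ x y : F, x ≠ y → a + x * b = 0 → a + y * b ≠ 0 := by
    intro x y hxy h1 h2
    have : (x - y) * b = 0 := by linear_combination h1 - h2
    rcases mul_eq_zero.1 this with h | h
    · exact hxy (sub_eq_zero.1 h)
    · exact hb h
  have key' : ∀ x y : F, x ≠ y → c + x * d = 0 → c + y * d ≠ 0 := by
    intro x y hxy h1 h2
    have : (x - y) * d = 0 := by linear_combination h1 - h2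
    rcases mul_eq_zero.1 this with h | h
    · exact hxy (sub_eq_zero.1 h)
    · exact hd h
  by_cases h0 : a + 0 * b = 0
  · have h1 := hcon 1 (key 0 1 zero_ne_one h0)
    exact key' 1 t (Ne.symm ht1) h1 (hcon t (key 0 t (Ne.symm ht0) h0))
  · have h0' := hcon 0 h0
    have h1 : a + 1 * b = 0 := by
      by_contra h1
      exact key' 0 1 zero_ne_one h0' (hcon 1 h1)
    exact key' 0 t (Ne.symm ht0) h0' (hcon t (key 1 t (Ne.symm ht1) h1))

theorem eq_zero_of_inJ {k : Fin n} {w : V} (h1 : InK (k + 1) w) (h2 : InJ (fun l => l ≠ k) w) :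
    w = 0 := by
  rw [expand w]
  refine Finset.sum_eq_zero fun j _ => ?_
  by_cases hj : j = k
  · rw [hj, (inK_succ.1 h1).2.1, (inK_succ.1 h1).2.2]
    simp
  · rw [(h2 j hj).1, (h2 j hj).2]
    simp

theorem PK_SJ_comm {k : Fin n} {a g : G} (ha : a ∈ SJ F k) (hg : g ∈ GK n F (k + 1)) :
    a * g = g * a := by
  refine GJ_comm (J := fun j => j ≠ k) (J' := fun j : Fin n => (j : ℕ) < k + 1) ?_ ha hg
  intro j
  by_cases h : j = k
  · right; rw [h]; exact Nat.lt_succ_self _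
  · exact Or.inl h

namespace StepData

variable {k k1 : Fin n} {α σ μ : Matrix.symplecticGroup (Fin n) F → H}
  (D : StepData k k1 α σ μ)

include D

theorem sctx_hyp {β : Matrix.symplecticGroup (Fin n) F → H} (hβ : IsHomOn (PK F k) β)
    (hβα : ∀ g ∈ GK n F (k + 1), β g = α g)
    (hβσ : ∀ a ∈ SJ F k, a • (ee k : V) = ee k → β a = σ a) :
    (sctx k hβ D.homσ).Hyp where
  inj := Subgroup.inclusion_injective (PK_le_GK k)
  stab m hm := ⟨⟨m.1, m.2, congrArg Subtype.val hm⟩, rfl⟩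
  fix k := Subtype.ext k.2.2
  symm := by
    intro u v h h'
    apply h
    rw [sympForm_swap, h', neg_zero]
  inv := by
    intro m u v h
    change f (m.1 • u.1) (m.1 • v.1) ≠ 0
    rw [form_smul]
    exact h
  nbr := by
    intro w hw
    obtain ⟨w0, hw0, hwe⟩ := decomp w.2.1
    have hb : f (ee k) w.1 ≠ 0 := hw
    obtain ⟨s, hs, hse⟩ := exists_SJ (F := F) (k := k) (a := 0) (b := f (ee k) w.1) (Or.inr hb)
    rw [zero_smul, zero_add] at hse
    refine ⟨⟨siegel (ee k) ((f (ee k) w.1)⁻¹ • w0) ((f (ee k) w.1)⁻¹ * f w.1 (ff k)),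
      siegel_mem_GK (hw0.smul _) _, siegel_ee (hw0.smul _) _⟩, ⟨s, hs⟩, ?_⟩
    apply Subtype.ext
    change siegel (ee k) ((f (ee k) w.1)⁻¹ • w0) ((f (ee k) w.1)⁻¹ * f w.1 (ff k)) •
      s • (ee k : V) = w.1
    rw [hse, siegel_move hw0 _ hb, ← hwe]
  uniq := by
    rintro ⟨x, hxG, hxe⟩ ⟨a, ha⟩ ⟨b, hb⟩ hadj heq
    have hadj' : f (ee k) (a • ee k) ≠ 0 := hadj
    have heq' : x • a • (ee k : V) = b • ee k := congrArg Subtype.val heq
    obtain ⟨w, c, g, hw, hg, rfl⟩ := exists_rep hxG hxe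
    have haJ : InJ (fun l => l ≠ k) (a • ee k : V) := (inJ_ee (by simp)).act ha
    have hbJ : InJ (fun l => l ≠ k) (b • ee k : V) := (inJ_ee (by simp)).act hb
    -- `w = 0`
    have hw0 : w = 0 := by
      have h1 : g • a • (ee k : V) = a • ee k := by
        rw [← mul_smul, ← PK_SJ_comm ha hg, mul_smul, (mem_GK_succ.1 hg).2.1]
      rw [mul_smul, h1, siegel_smul (perp_ee hw)] at heq'
      have h2 : f w (a • ee k) = 0 := by
        obtain ⟨w0, hw0, hwe⟩ := decomp (SJ_le_GK_self k ha |> (inK_ee k).act)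
        have h3 : w0 = 0 := by
          refine eq_zero_of_inJ hw0 ?_
          have : w0 = a • (ee k : V) - (f (a • ee k) (ff k) • ee k + f (ee k) (a • ee k) • ff k) := by
            rw [eq_sub_iff_add_eq, add_comm]
            exact hwe.symm
          rw [this]
          exact haJ.sub (inJ_plane _ _)
        rw [hwe, h3, add_zero, sympForm_add_right, sympForm_smul_right, sympForm_smul_right,
          (inK_succ.1 hw).2.1, (inK_succ.1 hw).2.2]
        ring
      rw [h2, zero_smul, add_zero] at heq'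
      have h4 : f (ee k) (a • ee k) • w =
          b • (ee k : V) - a • ee k - (f (ee k) (a • ee k) * c) • ee k := by
        rw [← heq', smul_add, smul_smul]
        abel
      have h5 : InJ (fun l => l ≠ k) (f (ee k) (a • ee k) • w) := by
        rw [h4]
        exact (hbJ.sub haJ).sub ((inJ_ee (by simp)).smul _)
      have h6 := eq_zero_of_inJ (hw.smul _) h5
      exact (smul_eq_zero.1 h6).resolve_left hadj'
    subst hw0
    set y := siegel (ee k) (0 : V) c with hy
    have hyS : y ∈ SJ F k := siegel_zero_mem_SJ k c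
    have hye : y • (ee k : V) = ee k := siegel_ee (inK_zero _) c
    have hx' : b⁻¹ * y * a ∈ SJ F k := mul_mem (mul_mem (inv_mem hb) hyS) ha
    have hge : g • (ee k : V) = ee k := (mem_GK_succ.1 hg).2.1
    have hx'e : (b⁻¹ * y * a) • (ee k : V) = ee k := by
      rw [mul_smul, mul_smul, inv_smul_eq_iff, ← heq', mul_smul, ← mul_smul g a,
        ← PK_SJ_comm ha hg, mul_smul, hge]
    have hx'P : b⁻¹ * y * a ∈ PK F k := ⟨SJ_le_GK_self k hx', hx'e⟩
    have hgP : g ∈ PK F k := GK_succ_le_PK k hg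
    have hyP : y ∈ PK F k := ⟨SJ_le_GK_self k hyS, hye⟩
    refine ⟨⟨b⁻¹ * y * a * g, mul_mem hx'P hgP⟩, ?_, ?_⟩
    · apply Subtype.ext
      change y * g * a = b * (b⁻¹ * y * a * g)
      rw [mul_assoc y g a, ← PK_SJ_comm ha hg]
      group
    · change β (y * g) * σ a = σ b * β (b⁻¹ * y * a * g)
      rw [hβ _ hyP _ hgP, hβ _ hx'P _ hgP, hβα g hg, hβσ _ hx' hx'e, hβσ y hyS hye, mul_assoc,
        ← D.commS a ha g hg, D.homσ _ (mul_mem (inv_mem hb) hyS) _ ha,
        D.homσ _ (inv_mem hb) _ hyS, D.homσ.inv hb]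
      group

/-- **The inductive step.** -/
theorem exists_hom (hF : ∃ a : F, a ≠ 0 ∧ a ≠ 1) : ∃ Φ : G → H, IsHomOn (GK n F k) Φ ∧
    (∀ g ∈ GK n F (k + 1), Φ g = α g) ∧ (∀ m ∈ MI n F k, Φ m = μ m) ∧
    ∀ a ∈ SJ F k, Φ a = σ a := by
  obtain ⟨β, hβ, hβα, hβμ, hβσ⟩ := D.exists_beta hF
  obtain ⟨Ψ, hΨ, hΨμ, hΨσ⟩ := D.ext0
  have hyp := D.sctx_hyp hβ hβα hβσ
  have hle : MI n F k ⊔ SJ F k ≤ GK n F k := (sup_le_RK k).trans (RK_le_GK k)
  -- the third subgroup
  have hB : ∀ b : ↥(MI n F k ⊔ SJ F k),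
      (sctx k hβ D.homσ).adj (sctx k hβ D.homσ).p
        ((Subgroup.inclusion hle) b • (sctx k hβ D.homσ).p) →
      (sctx k hβ D.homσ).E ((Subgroup.inclusion hle) b, hΨ.toHom b) := by
    rintro ⟨b, hb⟩ hadj
    have hb0 : f (ee k) (b • ee k) ≠ 0 := hadj
    have hbR := sup_le_RK k hb
    obtain ⟨w0, hw0, hbe⟩ := decomp ((inK_ee k).act (hle hb))
    set a0 := f (b • ee k) (ff k) with ha0
    set b0 := f (ee k) (b • ee k) with hb0'
    have h1 : ∀ j, f w0 (ee j) = 0 := by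
      intro j
      by_cases hj : j = k
      · rw [hj]; exact (inK_succ.1 hw0).2.1
      · have e1 := form_smul b (ee k) (ee j)
        rw [hbR.1 j hj, hbe, sympForm_add_left, sympForm_add_left, sympForm_smul_left,
          sympForm_smul_left, ee_ee, ff_ee_of_ne (Ne.symm hj)] at e1
        linear_combination e1
    have h2 : ∀ j, j ≠ k1 → f w0 (ff j) = 0 := by
      intro j hj1
      by_cases hj : j = k
      · rw [hj]; exact (inK_succ.1 hw0).2.2
      · have e1 := form_smul b (ee k) (ff j)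
        rw [hbR.2 j hj (fun h => hj1 (Fin.ext (h.trans D.hk.symm))), hbe, sympForm_add_left,
          sympForm_add_left, sympForm_smul_left, sympForm_smul_left, ff_ff,
          ee_ff_of_ne (Ne.symm hj)] at e1
        linear_combination e1
    have h3 := eq_smul_ee h1 h2
    have hT : siegel (ee k) (b0⁻¹ • w0) (b0⁻¹ * a0) ∈ MI n F k := by
      rw [h3, smul_smul]
      exact siegel_smul_mem_MI D.hk _ _
    set T := siegel (ee k) (b0⁻¹ • w0) (b0⁻¹ * a0) with hT'
    obtain ⟨s, hs, hse⟩ := exists_SJ (F := F) (k := k) (a := 0) (b := b0) (Or.inr hb0)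
    rw [zero_smul, zero_add] at hse
    have hTs : T • s • (ee k : V) = b • ee k := by
      rw [hse, hT', siegel_move hw0 a0 hb0, ← hbe]
    have hl : (T * s)⁻¹ * b ∈ MI n F k := by
      refine mem_MI_of_RK (mul_mem (inv_mem (mul_mem ?_ ?_)) hbR) ?_
      · exact sup_le_RK k (Subgroup.mem_sup_left hT)
      · exact sup_le_RK k (Subgroup.mem_sup_right hs)
      · rw [mul_smul, inv_smul_eq_iff, mul_smul, hTs]
    refine ⟨⟨T, MI_le_PK k hT⟩, ⟨s, hs⟩, ⟨(T * s)⁻¹ * b, MI_le_PK k hl⟩, ?_, Prod.ext ?_ ?_⟩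
    · change f (ee k) (s • ee k) ≠ 0
      rw [hse, sympForm_smul_right, ee_ff_self, mul_one]
      exact hb0
    · apply Subtype.ext
      change b = T * s * ((T * s)⁻¹ * b)
      group
    · change Ψ b = β T * σ s * β ((T * s)⁻¹ * b)
      have m1 := Subgroup.mem_sup_left (T := SJ F k) hT
      have m2 := Subgroup.mem_sup_right (S := MI n F k) hs
      rw [hβμ _ hT, hβμ _ hl, ← hΨμ _ hT, ← hΨμ _ hl, ← hΨσ s hs, ← hΨ _ m1 _ m2,
        ← hΨ _ (mul_mem m1 m2) _ (Subgroup.mem_sup_left hl), mul_inv_cancel_left]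
  -- triangles
  have htri : ∀ u v w : Om n F k, (sctx k hβ D.homσ).adj u v → (sctx k hβ D.homσ).adj u w →
      (sctx k hβ D.homσ).adj v w → (sctx k hβ D.homσ).Tri u v w := by
    intro u v w huv huw hvw
    have huv' : f u.1 v.1 ≠ 0 := huv
    have huw' : f u.1 w.1 ≠ 0 := huw
    obtain ⟨g0, hg0, hg0e, hg0f⟩ := exists_smul_pair (inK_ee k) (inK_ff k) u.2.1
      (v.2.1.smul (f u.1 v.1)⁻¹) (ee_ff_self k)
      (by rw [sympForm_smul_right, inv_mul_cancel₀ huv'])
    obtain ⟨w0, hw0, hwe⟩ := decomp (w.2.1.act (inv_mem hg0))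
    obtain ⟨g1, hg1, t, ht⟩ : ∃ g1 ∈ GK n F (k + 1), ∃ t : F, g1 • (t • ee k1 : V) = w0 := by
      by_cases h0 : w0 = 0
      · exact ⟨1, one_mem _, 0, by rw [zero_smul, smul_zero', h0]⟩
      · obtain ⟨g1, hg1, h⟩ := exists_smul_eq D.inK_e1 hw0 (ee_ne_zero k1) h0
        exact ⟨g1, hg1, 1, by rw [one_smul, h]⟩
    set a0 := f (g0⁻¹ • w.1) (ff k) with ha0
    set b0 := f (ee k) (g0⁻¹ • w.1) with hb0
    have hb0' : b0 ≠ 0 := by
      have := form_smul g0 (ee k) (g0⁻¹ • w.1)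
      rw [smul_inv_smul, hg0e] at this
      rw [hb0, ← this]
      exact huw'
    obtain ⟨h1e, h1f⟩ := (mem_GK_succ.1 hg1).2
    obtain ⟨s, hs, hse⟩ := exists_SJ (F := F) (k := k) (a := 0) (b := f u.1 v.1) (Or.inr huv')
    obtain ⟨s', hs', hse'⟩ := exists_SJ (F := F) (k := k) (a := 0) (b := b0) (Or.inr hb0')
    rw [zero_smul, zero_add] at hse hse'
    have hT : siegel (ee k) (b0⁻¹ • (t • ee k1 : V)) (b0⁻¹ * a0) ∈ MI n F k := by
      rw [smul_smul]
      exact siegel_smul_mem_MI D.hk _ _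
    have hTm := siegel_move (k := k) (D.inK_e1.smul t) a0 hb0'
    set T := siegel (ee k) (b0⁻¹ • (t • ee k1 : V)) (b0⁻¹ * a0) with hT'
    set g : ↥(GK n F k) := ⟨g0 * g1, mul_mem hg0 (GK_succ_le _ hg1)⟩ with hg
    set x1 : ↥(MI n F k ⊔ SJ F k) := 1
    set x2 : ↥(MI n F k ⊔ SJ F k) := ⟨s, Subgroup.mem_sup_right hs⟩ with hx2
    set x3 : ↥(MI n F k ⊔ SJ F k) :=
      ⟨T * s', mul_mem (Subgroup.mem_sup_left hT) (Subgroup.mem_sup_right hs')⟩ with hx3
    have e1 : g • (Subgroup.inclusion hle) x1 • (sctx k hβ D.homσ).p = u := by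
      rw [map_one, one_smul]
      apply Subtype.ext
      change (g0 * g1) • (ee k : V) = u.1
      rw [mul_smul, h1e, hg0e]
    have e2 : g • (Subgroup.inclusion hle) x2 • (sctx k hβ D.homσ).p = v := by
      apply Subtype.ext
      change (g0 * g1) • s • (ee k : V) = v.1
      rw [mul_smul, hse, smul_smul', h1f, smul_smul', hg0f, smul_smul, mul_inv_cancel₀ huv',
        one_smul]
    have e3 : g • (Subgroup.inclusion hle) x3 • (sctx k hβ D.homσ).p = w := by
      apply Subtype.ext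
      change (g0 * g1) • (T * s') • (ee k : V) = w.1
      have h4 : g1 • (a0 • ee k + b0 • ff k + t • ee k1 : V) = a0 • ee k + b0 • ff k + w0 := by
        rw [smul_add', smul_add', smul_smul' g1 a0, h1e, smul_smul' g1 b0, h1f, ht]
      rw [mul_smul T, hse', hTm, mul_smul, h4, ← hwe, smul_inv_smul]
    rw [← e1, ← e2, ← e3]
    apply hyp.tri_smul
    have hinv : ∀ x y : Om n F k, (sctx k hβ D.homσ).adj (g • x) (g • y) →
        (sctx k hβ D.homσ).adj x y := by
      intro x y h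
      have := hyp.inv g⁻¹ h
      rwa [inv_smul_smul, inv_smul_smul] at this
    refine hyp.tri_of_hom (Subgroup.inclusion hle) hΨ.toHom hB x1 x2 x3 ?_ ?_ ?_
    · apply hinv; rw [e1, e2]; exact huv
    · apply hinv; rw [e1, e3]; exact huw
    · apply hinv; rw [e2, e3]; exact hvw
  -- neighbours
  have hswap : ∀ {x y : V}, f x y ≠ 0 → f y x ≠ 0 := by
    intro x y h h'
    apply h
    rw [sympForm_swap, h', neg_zero]
  have hnz : ∀ {x y : V}, f x y ≠ 0 → y ≠ 0 := by
    rintro x y h rfl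
    exact h (sympForm_zero_right _)
  have hD : ∀ w : Om n F k, ∃ u, (sctx k hβ D.homσ).adj (sctx k hβ D.homσ).p u ∧
      (sctx k hβ D.homσ).adj u w := by
    intro w
    obtain ⟨z, hz, h1, h2⟩ := exists_both (inK_ee k) w.2.1 (ee_ne_zero k) w.2.2
    exact ⟨⟨z, hz, hnz h1⟩, h1, hswap h2⟩
  have hP : ∀ w w' : Om n F k, (sctx k hβ D.homσ).adj w w' →
      ∃ u, (sctx k hβ D.homσ).adj (sctx k hβ D.homσ).p u ∧ (sctx k hβ D.homσ).adj u w ∧
        (sctx k hβ D.homσ).adj u w' := by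
    intro w w' hww
    have hww' : f w.1 w'.1 ≠ 0 := hww
    obtain ⟨z, hz, h1, h2⟩ := exists_both (inK_ee k) w.2.1 (ee_ne_zero k) w.2.2
    by_cases h3 : f w'.1 z = 0
    · -- `u = z + s w`, `s ≠ 0`
      obtain ⟨s, hs0, hs1⟩ : ∃ s : F, s ≠ 0 ∧ f (ee k) z + s * f (ee k) w.1 ≠ 0 := by
        by_cases h4 : f (ee k) w.1 = 0
        · exact ⟨1, one_ne_zero, by rw [h4, mul_zero, add_zero]; exact h1⟩
        · obtain ⟨s, hs1, hs2⟩ := exists_avoid hF (a := f (ee k) z) (b := f (ee k) w.1)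
            (c := (0 : F)) (d := 1) h4 one_ne_zero
          refine ⟨s, ?_, hs1⟩
          rintro rfl
          exact hs2 (by ring)
      have u1 : f (ee k) (z + s • w.1) ≠ 0 := by
        rw [sympForm_add_right, sympForm_smul_right]
        exact hs1
      have u2 : f w.1 (z + s • w.1) ≠ 0 := by
        rw [sympForm_add_right, sympForm_smul_right, sympForm_self, mul_zero, add_zero]
        exact h2
      have u3 : f w'.1 (z + s • w.1) ≠ 0 := by
        rw [sympForm_add_right, sympForm_smul_right, h3, zero_add]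
        exact mul_ne_zero hs0 (hswap hww')
      exact ⟨⟨z + s • w.1, hz.add (w.2.1.smul s), hnz u1⟩, u1, hswap u2, hswap u3⟩
    · exact ⟨⟨z, hz, hnz h1⟩, h1, hswap h2, hswap h3⟩
  have hQ : ∀ w u u' : Om n F k, (sctx k hβ D.homσ).adj (sctx k hβ D.homσ).p u →
      (sctx k hβ D.homσ).adj u w → (sctx k hβ D.homσ).adj (sctx k hβ D.homσ).p u' →
      (sctx k hβ D.homσ).adj u' w → Cover2.Same (sctx k hβ D.homσ) w u u' := by
    intro w u u' hu huw hu' hu'w
    refine (Cover2.same_of_path hyp htri hu huw ?_).1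
    by_cases huu : f u.1 u'.1 = 0
    · obtain ⟨x, hx, h1, h2⟩ := exists_both u.2.1 u'.2.1 u.2.2 u'.2.2
      have hpu : f (ee k) u.1 ≠ 0 := hu
      have hwu : f w.1 u.1 ≠ 0 := hswap huw
      obtain ⟨s, hs1, hs2⟩ := exists_avoid hF (a := f (ee k) x) (b := f (ee k) u.1)
        (c := f w.1 x) (d := f w.1 u.1) hpu hwu
      have v1 : f (ee k) (x + s • u.1) ≠ 0 := by
        rw [sympForm_add_right, sympForm_smul_right]
        exact hs1
      have v2 : f w.1 (x + s • u.1) ≠ 0 := by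
        rw [sympForm_add_right, sympForm_smul_right]
        exact hs2
      have v3 : f u.1 (x + s • u.1) ≠ 0 := by
        rw [sympForm_add_right, sympForm_smul_right, sympForm_self, mul_zero, add_zero]
        exact h1
      have v4 : f u'.1 (x + s • u.1) ≠ 0 := by
        rw [sympForm_add_right, sympForm_smul_right, sympForm_swap u'.1 u.1, huu, neg_zero,
          mul_zero, add_zero]
        exact h2
      exact (Relation.ReflTransGen.single (b := (⟨x + s • u.1, hx.add (u.2.1.smul s), hnz v1⟩ :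
        Om n F k)) ⟨v3, v1, hswap v2⟩).tail ⟨hswap v4, hu', hu'w⟩
    · exact Relation.ReflTransGen.single ⟨huu, hu', hu'w⟩
  obtain ⟨Φ, hΦ1, hΦ2⟩ := Cover2.exists_hom_of_same hyp htri hD hP hQ
  have hΦβ : ∀ g (hg : g ∈ PK F k), Φ ⟨g, PK_le_GK k hg⟩ = β g := fun g hg => hΦ1 ⟨g, hg⟩
  have hΦσ : ∀ a (ha : a ∈ SJ F k), f (ee k) (a • ee k) ≠ 0 →
      Φ ⟨a, SJ_le_GK_self k ha⟩ = σ a := fun a ha h => hΦ2 ⟨a, ha⟩ h
  refine ⟨extF Φ, isHomOn_extF Φ, ?_, ?_, ?_⟩
  · intro g hg
    rw [extF_apply Φ (GK_succ_le _ hg), hΦβ g (GK_succ_le_PK k hg), hβα g hg]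
  · intro m hm
    rw [extF_apply Φ (MI_le_GK le_rfl hm), hΦβ m (MI_le_PK k hm), hβμ m hm]
  · intro a ha
    rw [extF_apply Φ (SJ_le_GK_self k ha)]
    by_cases h : f (ee k) (a • ee k) = 0
    · obtain ⟨s, hs, hse⟩ := exists_SJ (F := F) (k := k) (a := 0) (b := 1) (Or.inr one_ne_zero)
      rw [zero_smul, zero_add, one_smul] at hse
      have h1 : f (ee k) (s • ee k) ≠ 0 := by
        rw [hse, ee_ff_self]; exact one_ne_zero
      have h2 : f (ee k) ((a * s) • ee k) ≠ 0 := by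
        rw [mul_smul, hse]
        intro h'
        obtain ⟨w0, hw0, hae⟩ := decomp ((inK_ee k).act (SJ_le_GK_self k ha))
        have haJ : InJ (fun l => l ≠ k) (a • ee k : V) := (inJ_ee (by simp)).act ha
        have h3 : w0 = 0 := by
          refine eq_zero_of_inJ hw0 ?_
          have : w0 = a • (ee k : V) - (f (a • ee k) (ff k) • ee k + f (ee k) (a • ee k) • ff k) := by
            rw [eq_sub_iff_add_eq, add_comm]
            exact hae.symm
          rw [this]
          exact haJ.sub (inJ_plane _ _)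
        have h4 := form_smul a (ee k) (ff k)
        rw [hae, h, h3, zero_smul, add_zero, add_zero, sympForm_smul_left, h', mul_zero,
          ee_ff_self] at h4
        exact zero_ne_one h4
      have h3 := hΦσ s hs h1
      have h4 := hΦσ (a * s) (mul_mem ha hs) h2
      have h5 : Φ ⟨a * s, SJ_le_GK_self k (mul_mem ha hs)⟩ =
          Φ ⟨a, SJ_le_GK_self k ha⟩ * Φ ⟨s, SJ_le_GK_self k hs⟩ := by
        rw [← map_mul]
        rfl
      rw [h4, h3, D.homσ a ha s hs] at h5
      exact (mul_right_cancel h5).symm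
    · exact hΦσ a ha h

end StepData

end Cfsg.Agent.H434.Slim
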